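import Mathlib
import Cfsg.Agent.H262.Rg.Ratio
import Cfsg.Agent.H851.Dg.NumT

/-!
# Random generation (S5714): the interface of the rows and the assembly

For a finite group `T`:
* `nongen T` : the number of pairs which do not generate `T`;
* `SetsOf T s α` : at most `s` normal sets, each of density at least `α`, such that every proper subgroup misses one;
* `RatioM T m γ` (`Ratio.lean`) : `E_y |χ (y ^ m)| ≤ γ χ(1)`;
* `FixB T β P` : for all `y` outside a set of density `P`: `∑_{t ∈ ⟨y⟩} Re χ(t) ≤ β |⟨y⟩| χ(1)`.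

Rows (`P : Grp → Prop`, names of `H436`):
* `FamG P` : `nongen T ≤ ε |T|²` for all large `T` with name in `P`;
* `SetRow P`, `RatioRow P`, `FixRow P`.
-/

set_option autoImplicit false
set_option linter.unusedSectionVars false

namespace Cfsg.Agent.H262.Rg.Asm

open Cfsg Cfsg.Agent.OrdDiv Cfsg.Agent.H436 Subgroup
open Cfsg.Agent.H262.Rg.Engine Cfsg.Agent.H262.Rg.Powers Cfsg.Agent.H262.Rg.Ratio
open Cfsg.Agent.H278.El.AltNum (dimOf)
open Cfsg.Agent.H851.Dg (BigCl)

universe u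

/-- number of pairs not generating `T` -/
noncomputable def nongen (T : Type u) [Group T] : ℕ :=
  Nat.card {p : T × T // closure {p.1, p.2} ≠ ⊤}

/-- at most `s` normal sets of density at least `α` such that every proper subgroup misses one of them -/
def SetsOf (T : Type u) [Group T] (s : ℕ) (α : ℝ) : Prop :=
  ∃ (n : ℕ) (A : Fin n → Set T), n ≤ s ∧ (∀ i, Normal (A i)) ∧ (∀ i, α * Nat.card T ≤ Nat.card (A i)) ∧
    ∀ R : Subgroup T, R ≠ ⊤ → ∃ i, ∀ x ∈ R, x ∉ A i

section One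

variable {T : Type u} [Group T] [Fintype T]

theorem nongen_le_card : (nongen T : ℝ) ≤ (Nat.card T : ℝ) ^ 2 := by
  have h : nongen T ≤ Nat.card (T × T) := Nat.card_le_card_of_injective _ Subtype.val_injective
  rw [Nat.card_prod] at h
  have h2 : (nongen T : ℝ) ≤ ((Nat.card T * Nat.card T : ℕ) : ℝ) := by exact_mod_cast h
  rw [Nat.cast_mul] at h2
  rw [pow_two]
  exact h2

/-- union bound over the sets -/
theorem nongen_le_sum {s : ℕ} {α B : ℝ} (hS : SetsOf T s α) (hB0 : 0 ≤ B)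
    (hB : ∀ A : Set T, Normal A → α * Nat.card T ≤ Nat.card A →
      (Nat.card {p : T × T // ∀ z ∈ closure {p.1, p.2}, z ∉ A} : ℝ) ≤ B) : (nongen T : ℝ) ≤ s * B := by
  classical
  obtain ⟨n, A, hn, hA, hd, hR⟩ := hS
  have h1 : nongen T ≤ ∑ i : Fin n, Nat.card {p : T × T // ∀ z ∈ closure {p.1, p.2}, z ∉ A i} := by
    have h2 : Nat.card (Σ i : Fin n, {p : T × T // ∀ z ∈ closure {p.1, p.2}, z ∉ A i}) =
        ∑ i : Fin n, Nat.card {p : T × T // ∀ z ∈ closure {p.1, p.2}, z ∉ A i} := by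
      rw [Nat.card_sigma]
    rw [← h2]
    have hch : ∀ p : {p : T × T // closure {p.1, p.2} ≠ ⊤}, ∃ i, ∀ z ∈ closure {p.1.1, p.1.2}, z ∉ A i :=
      fun p => hR _ p.2
    choose f hf using hch
    refine Nat.card_le_card_of_injective (fun p => (⟨f p, p.1, hf p⟩ :
      Σ i : Fin n, {p : T × T // ∀ z ∈ closure {p.1, p.2}, z ∉ A i})) ?_
    intro p p' h
    have h3 : f p = f p' := congrArg Sigma.fst h
    have h4 : p.1 = p'.1 := by
      have := congrArg (fun x : Σ i : Fin n, {p : T × T // ∀ z ∈ closure {p.1, p.2}, z ∉ A i} => x.2.1) h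
      exact this
    exact Subtype.ext h4
  have h2 : (nongen T : ℝ) ≤ ∑ i : Fin n, (Nat.card {p : T × T // ∀ z ∈ closure {p.1, p.2}, z ∉ A i} : ℝ) := by
    exact_mod_cast h1
  refine h2.trans ((Finset.sum_le_sum fun i _ => hB (A i) (hA i) (hd i)).trans ?_)
  rw [Finset.sum_const, Finset.card_univ, Fintype.card_fin, nsmul_eq_mul]
  exact mul_le_mul_of_nonneg_right (by exact_mod_cast hn) hB0

theorem le_dens {A : Set T} {α : ℝ} (h : α * Nat.card T ≤ Nat.card A) : α ≤ dens A := by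
  have hG : (0 : ℝ) < Nat.card T := by exact_mod_cast Nat.card_pos
  unfold dens
  rwa [le_div_iff₀ hG]

/-- **Few pairs do not generate, from the ratios of powers.** -/
theorem nongen_le_of_ratio {s : ℕ} {α : ℝ} (hS : SetsOf T s α) (hα : 0 < α) {K : ℕ} (hK : 0 < K) {γ : ℝ}
    (hγ0 : 0 ≤ γ) (hγ : ∀ m, 0 < m → m < K → RatioM T m γ) :
    (nongen T : ℝ) ≤ s * ((Nat.card T : ℝ) ^ 2 * ((1 / K + γ) / α)) := by
  classical
  have hK' : (0 : ℝ) < K := by exact_mod_cast hK
  refine nongen_le_sum hS (by positivity) fun A hA hd => ?_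
  have h1 := pairs_miss_of_ratio hA hK hγ0 hγ
  have h2 : (Nat.card {p : T × T // ∀ z ∈ closure {p.1, p.2}, z ∉ A} : ℝ) ≤
      Nat.card {p : T × T // ∀ i < K, p.1 * p.2 ^ i ∉ A} := by
    have : Nat.card {p : T × T // ∀ z ∈ closure {p.1, p.2}, z ∉ A} ≤
        Nat.card {p : T × T // ∀ i < K, p.1 * p.2 ^ i ∉ A} := by
      refine Nat.card_le_card_of_injective (fun p => ⟨p.1, fun i _ => p.2 _ ?_⟩) fun a b h => ?_
      · exact mul_mem (subset_closure (by simp)) (pow_mem (subset_closure (by simp)) i)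
      · exact Subtype.ext (congrArg (fun x => x.1) h)
    exact_mod_cast this
  refine h2.trans ?_
  have h3 := le_dens hd
  have h4 : (Nat.card {p : T × T // ∀ i < K, p.1 * p.2 ^ i ∉ A} : ℝ) * α ≤ (Nat.card T : ℝ) ^ 2 * (1 / K + γ) :=
    (mul_le_mul_of_nonneg_left h3 (Nat.cast_nonneg _)).trans h1
  rw [← mul_div_assoc, le_div_iff₀ hα]
  exact h4

/-- for all `y` outside a set of density `P`, the average of `χ` over `⟨y⟩` is at most `β χ(1)` -/
def FixB (T : Type u) [Group T] [Fintype T] (β P : ℝ) : Prop :=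
  ∃ S : Set T, (Nat.card {y : T // y ∉ S} : ℝ) ≤ P * Nat.card T ∧ ∀ y ∈ S, ∀ χ : T → ℂ, IsIrrCharacter T χ → χ ≠ 1 →
    ∑ t ∈ (Set.toFinite (zpowers y : Set T)).toFinset, (χ t / χ 1).re ≤ β * Nat.card (zpowers y)

/-- **Few pairs do not generate, from the averages over `⟨y⟩`.** -/
theorem nongen_le_of_fix {s : ℕ} {α : ℝ} (hS : SetsOf T s α) (hα : 0 < α) {β P : ℝ} (hβ : 0 ≤ β)
    (hF : FixB T β P) : (nongen T : ℝ) ≤ (Nat.card T : ℝ) ^ 2 * (P + s * (β / α)) := by
  classical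
  obtain ⟨S, hP, hS'⟩ := hF
  obtain ⟨n, A, hn, hA, hd, hR⟩ := hS
  have hG : (0 : ℝ) < Nat.card T := by exact_mod_cast Nat.card_pos
  -- pairs with `y ∈ S` missing a set
  have hmiss : ∀ i, (Nat.card {p : T × T // p.2 ∈ S ∧ ∀ z ∈ closure {p.1, p.2}, z ∉ A i} : ℝ) ≤
      (Nat.card T : ℝ) ^ 2 * (β / α) := by
    intro i
    have e1 : Nat.card {p : T × T // p.2 ∈ S ∧ ∀ z ∈ closure {p.1, p.2}, z ∉ A i} ≤
        Nat.card (Σ y : S, {x : T // ∀ t ∈ zpowers (y : T), x * t ∉ A i}) := by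
      refine Nat.card_le_card_of_injective (fun p => ⟨⟨p.1.2, p.2.1⟩, p.1.1, fun t ht => p.2.2 _ ?_⟩) fun a b h => ?_
      · exact mul_mem (subset_closure (by simp)) ((zpowers_le.2 (subset_closure (by simp))) ht)
      · have h1 : (a.1.2 : T) = b.1.2 := congrArg
          (fun x : Σ y : S, {x : T // ∀ t ∈ zpowers (y : T), x * t ∉ A i} => (x.1 : T)) h
        have h2 : (a.1.1 : T) = b.1.1 := congrArg
          (fun x : Σ y : S, {x : T // ∀ t ∈ zpowers (y : T), x * t ∉ A i} => x.2.1) h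
        exact Subtype.ext (Prod.ext h2 h1)
    have e2 : (Nat.card (Σ y : S, {x : T // ∀ t ∈ zpowers (y : T), x * t ∉ A i}) : ℝ) =
        ∑ y : S, (Nat.card {x : T // ∀ t ∈ zpowers (y : T), x * t ∉ A i} : ℝ) := by
      rw [Nat.card_sigma]
      push_cast
      rfl
    have e3 : ∀ y : S, (Nat.card {x : T // ∀ t ∈ zpowers (y : T), x * t ∉ A i} : ℝ) ≤ Nat.card T * (β / α) := by
      intro y
      have h1 := card_miss_subgroup_le (hA i) (zpowers (y : T)) hβ (fun χ hχ hne => by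
        have h2 := hS' y y.2 χ hχ hne
        have h3 : ∑ t ∈ (Set.toFinite (zpowers (y : T) : Set T)).toFinset, (χ t / χ 1).re =
            ∑ t : zpowers (y : T), (χ (t : T) / χ 1).re := by
          rw [← Finset.sum_coe_sort (Set.toFinite (zpowers (y : T) : Set T)).toFinset (fun t => (χ t / χ 1).re)]
          refine Fintype.sum_equiv (Equiv.subtypeEquivRight fun t => by simp) _ _ fun t => rfl
        rw [h3, Nat.card_eq_fintype_card] at h2
        exact h2)
      have h4 := le_dens (hd i)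
      rw [← mul_div_assoc, le_div_iff₀ hα]
      exact (mul_le_mul_of_nonneg_left h4 (Nat.cast_nonneg _)).trans h1
    have e4 : (Nat.card {p : T × T // p.2 ∈ S ∧ ∀ z ∈ closure {p.1, p.2}, z ∉ A i} : ℝ) ≤
        (Nat.card (Σ y : S, {x : T // ∀ t ∈ zpowers (y : T), x * t ∉ A i}) : ℝ) := by exact_mod_cast e1
    refine e4.trans ?_
    rw [e2]
    refine (Finset.sum_le_sum fun y _ => e3 y).trans ?_
    rw [Finset.sum_const, nsmul_eq_mul, pow_two, mul_assoc]
    refine mul_le_mul_of_nonneg_right ?_ (by positivity)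
    rw [Finset.card_univ, Nat.card_eq_fintype_card]
    exact_mod_cast Fintype.card_le_of_injective _ Subtype.val_injective
  have h1 : nongen T ≤ Nat.card {p : T × T // p.2 ∉ S} +
      ∑ i : Fin n, Nat.card {p : T × T // p.2 ∈ S ∧ ∀ z ∈ closure {p.1, p.2}, z ∉ A i} := by
    have h2 : Nat.card (Σ i : Fin n, {p : T × T // p.2 ∈ S ∧ ∀ z ∈ closure {p.1, p.2}, z ∉ A i}) =
        ∑ i : Fin n, Nat.card {p : T × T // p.2 ∈ S ∧ ∀ z ∈ closure {p.1, p.2}, z ∉ A i} := by
      rw [Nat.card_sigma]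
    rw [← h2, ← Nat.card_sum]
    have hch : ∀ p : {p : T × T // closure {p.1, p.2} ≠ ⊤}, ∃ i, ∀ z ∈ closure {p.1.1, p.1.2}, z ∉ A i :=
      fun p => hR _ p.2
    choose f hf using hch
    refine Nat.card_le_card_of_injective (fun p : {p : T × T // closure {p.1, p.2} ≠ ⊤} =>
      if h : p.1.2 ∈ S then Sum.inr ⟨f p, p.1, h, hf p⟩ else Sum.inl ⟨p.1, h⟩) ?_
    intro p p' h
    apply Subtype.ext
    by_cases h1 : p.1.2 ∈ S <;> by_cases h2 : p'.1.2 ∈ S
    · simp only [h1, h2, dif_pos] at h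
      exact congrArg (fun x : Σ i : Fin n, {p : T × T // p.2 ∈ S ∧ ∀ z ∈ closure {p.1, p.2}, z ∉ A i} => x.2.1)
        (Sum.inr_injective h)
    · simp only [h1, h2, dif_pos, dif_neg, not_false_iff] at h
      exact absurd h (by simp)
    · simp only [h1, h2, dif_pos, dif_neg, not_false_iff] at h
      exact absurd h (by simp)
    · simp only [h1, h2, dif_neg, not_false_iff] at h
      exact congrArg (fun x : {p : T × T // p.2 ∉ S} => x.1) (Sum.inl_injective h)
  have h2 : (Nat.card {p : T × T // p.2 ∉ S} : ℝ) ≤ (Nat.card T : ℝ) ^ 2 * P := by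
    have e : Nat.card {p : T × T // p.2 ∉ S} = Nat.card T * Nat.card {y : T // y ∉ S} := by
      rw [← Nat.card_prod]
      exact Nat.card_congr
        { toFun := fun p => (p.1.1, ⟨p.1.2, p.2⟩)
          invFun := fun q => ⟨(q.1, q.2.1), q.2.2⟩
          left_inv := fun p => rfl
          right_inv := fun q => rfl }
    rw [e]
    push_cast
    calc (Nat.card T : ℝ) * Nat.card {y : T // y ∉ S} ≤ Nat.card T * (P * Nat.card T) :=
          mul_le_mul_of_nonneg_left hP hG.le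
      _ = _ := by ring
  have h3 : (nongen T : ℝ) ≤ Nat.card {p : T × T // p.2 ∉ S} +
      ∑ i : Fin n, (Nat.card {p : T × T // p.2 ∈ S ∧ ∀ z ∈ closure {p.1, p.2}, z ∉ A i} : ℝ) := by exact_mod_cast h1
  refine h3.trans ?_
  rw [mul_add]
  refine add_le_add h2 ((Finset.sum_le_sum fun i _ => hmiss i).trans ?_)
  rw [Finset.sum_const, Finset.card_univ, Fintype.card_fin, nsmul_eq_mul]
  have h5 : (n : ℝ) ≤ s := by exact_mod_cast hn
  calc (n : ℝ) * ((Nat.card T : ℝ) ^ 2 * (β / α)) ≤ s * ((Nat.card T : ℝ) ^ 2 * (β / α)) :=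
        mul_le_mul_of_nonneg_right h5 (by positivity)
    _ = _ := by ring

end One

section Rows

/-- `log₂ |T|` -/
noncomputable def lg (T : Type u) : ℕ := Nat.log 2 (Nat.card T)

theorem le_lg {T : Type u} {k : ℕ} (h : 2 ^ k ≤ Nat.card T) : k ≤ lg T := by
  unfold lg
  have h2 : Nat.card T ≠ 0 := by
    have : 0 < 2 ^ k := by positivity
    omega
  exact Nat.le_log_of_pow_le (by norm_num) h

/-- `nongen T ≤ ε |T|²` for all large simple `T` with a name in `P` -/
def FamG (P : Grp → Prop) : Prop :=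
  ∀ ε : ℝ, 0 < ε → ∃ D : ℕ, ∀ (g : Grp) (T : Type) [Group T] [Finite T] [IsSimpleGroup T],
    IsNamed g T → P g → D ≤ Nat.card T → (nongen T : ℝ) ≤ ε * (Nat.card T : ℝ) ^ 2

/-- few dense normal sets such that every proper subgroup misses one of them -/
def SetRow (P : Grp → Prop) : Prop :=
  ∃ C : ℕ, 0 < C ∧ ∃ D : ℕ, ∀ (g : Grp) (T : Type) [Group T] [Finite T] [IsSimpleGroup T],
    IsNamed g T → P g → D ≤ Nat.card T → SetsOf T (C * lg T) (1 / (C * lg T))

/-- the ratios of the powers `y ^ m`, `m < (log |T|)^A`, are at most `(log |T|)^(-A)` on average -/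
def RatioRow (P : Grp → Prop) : Prop :=
  ∀ A : ℕ, ∃ D : ℕ, ∀ (g : Grp) (T : Type) [Group T] [Fintype T] [IsSimpleGroup T],
    IsNamed g T → P g → D ≤ Nat.card T → ∀ m, 0 < m → m < lg T ^ A → RatioM T m (1 / (lg T : ℝ) ^ A)

/-- large dimension: for most `y` the averages over `⟨y⟩` are at most `(log |T|)^(-A)` -/
def LargeFix (P : Grp → Prop) : Prop :=
  ∀ (A : ℕ) (ε : ℝ), 0 < ε → ∃ N : ℕ, ∀ (g : Grp) (T : Type) [Group T] [Fintype T] [IsSimpleGroup T],
    IsNamed g T → P g → N ≤ dimOf g → FixB T (1 / (lg T : ℝ) ^ A) ε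

theorem FamG.mono {P Q : Grp → Prop} (hQ : FamG Q) (h : ∀ g, P g → Q g) : FamG P := by
  intro ε hε
  obtain ⟨D, hD⟩ := hQ ε hε
  exact ⟨D, fun g T _ _ _ hT hg => hD g T hT (h g hg)⟩

theorem FamG.or {P Q : Grp → Prop} (hP : FamG P) (hQ : FamG Q) : FamG fun g => P g ∨ Q g := by
  intro ε hε
  obtain ⟨D, hD⟩ := hP ε hε
  obtain ⟨D', hD'⟩ := hQ ε hε
  refine ⟨max D D', fun g T _ _ _ hT hg h => ?_⟩
  rcases hg with hg | hg
  · exact hD g T hT hg ((le_max_left _ _).trans h)
  · exact hD' g T hT hg ((le_max_right _ _).trans h)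

theorem SetRow.mono {P Q : Grp → Prop} (hQ : SetRow Q) (h : ∀ g, P g → Q g) : SetRow P := by
  obtain ⟨C, hC, D, hD⟩ := hQ
  exact ⟨C, hC, D, fun g T _ _ _ hT hg => hD g T hT (h g hg)⟩

theorem RatioRow.mono {P Q : Grp → Prop} (hQ : RatioRow Q) (h : ∀ g, P g → Q g) : RatioRow P := by
  intro A
  obtain ⟨D, hD⟩ := hQ A
  exact ⟨D, fun g T _ _ _ hT hg => hD g T hT (h g hg)⟩

theorem RatioRow.or {P Q : Grp → Prop} (hP : RatioRow P) (hQ : RatioRow Q) : RatioRow fun g => P g ∨ Q g := by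
  intro A
  obtain ⟨D, hD⟩ := hP A
  obtain ⟨D', hD'⟩ := hQ A
  refine ⟨max D D', fun g T _ _ _ hT hg h => ?_⟩
  rcases hg with hg | hg
  · exact hD g T hT hg ((le_max_left _ _).trans h)
  · exact hD' g T hT hg ((le_max_right _ _).trans h)

/-- bounded order -/
theorem famG_of_card_le {P : Grp → Prop} (B : ℕ) (h : ∀ g, P g → num g ≤ B) : FamG P := by
  intro ε hε
  refine ⟨B + 1, fun g T _ _ _ hT hg hD => ?_⟩
  have h1 : Nat.card T ≤ B := by
    refine le_trans ?_ (h g hg)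
    rw [← hT.eq]
    exact Nat.le_mul_of_pos_left _ (H436.den_pos hT.cond)
  omega

theorem exists_nat_pow_two (x : ℝ) : ∃ k : ℕ, 1 ≤ k ∧ x ≤ k := by
  obtain ⟨k, hk⟩ := exists_nat_ge x
  exact ⟨k + 1, by omega, hk.trans (by push_cast; linarith)⟩

/-- **A row of `FamG` from `SetRow` and `RatioRow`.** -/
theorem famG_of_ratio {P : Grp → Prop} (hS : SetRow P) (hR : RatioRow P) : FamG P := by
  intro ε hε
  obtain ⟨C, hC, D, hD⟩ := hS
  obtain ⟨D', hD'⟩ := hR 4
  obtain ⟨k, hk1, hk⟩ := exists_nat_pow_two (2 * (C : ℝ) ^ 2 / ε)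
  refine ⟨D + D' + 2 ^ k, fun g T _ _ _ hT hg h => ?_⟩
  have := Fintype.ofFinite T
  have hk2 : 0 < 2 ^ k := by positivity
  have h1 := hD g T hT hg (by omega)
  have h2 := hD' g T hT hg (by omega)
  have h3 : k ≤ lg T := le_lg (by omega)
  set L := lg T with hL
  have hL1 : (1 : ℝ) ≤ L := by exact_mod_cast hk1.trans h3
  have hC' : (0 : ℝ) < C := by exact_mod_cast hC
  have h4 := nongen_le_of_ratio (K := L ^ 4) h1 (by positivity) (by
    have : 0 < L := by omega
    positivity) (by positivity) h2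
  refine h4.trans ?_
  have h5 : (2 * (C : ℝ) ^ 2 / ε) ≤ L := hk.trans (by exact_mod_cast h3)
  rw [div_le_iff₀ hε] at h5
  have h6 : ((C * L : ℕ) : ℝ) * ((Nat.card T : ℝ) ^ 2 * ((1 / ((L ^ 4 : ℕ) : ℝ) + 1 / (L : ℝ) ^ 4) / (1 / (C * L)))) =
      (Nat.card T : ℝ) ^ 2 * (2 * (C : ℝ) ^ 2 / (L : ℝ) ^ 2) := by
    push_cast
    field_simp
    ring
  rw [h6, mul_comm ε]
  refine mul_le_mul_of_nonneg_left ?_ (by positivity)
  rw [div_le_iff₀ (by positivity)]
  nlinarith

/-- **The classical groups**: large dimension from `LargeFix`, bounded dimension from `RatioRow`. -/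
theorem famG_of_large {P : Grp → Prop} (hS : SetRow P) (hF : LargeFix P)
    (hR : ∀ N : ℕ, RatioRow fun g => P g ∧ dimOf g < N) : FamG P := by
  intro ε hε
  obtain ⟨N, hN⟩ := hF 3 (ε / 2) (by positivity)
  obtain ⟨D0, hD0⟩ := famG_of_ratio (hS.mono fun g (hg : P g ∧ dimOf g < N) => hg.1) (hR N) ε hε
  obtain ⟨C, hC, D, hD⟩ := hS
  obtain ⟨k, hk1, hk⟩ := exists_nat_pow_two (2 * (C : ℝ) ^ 2 / ε)
  refine ⟨D0 + D + 2 ^ k, fun g T _ _ _ hT hg h => ?_⟩
  have hk2 : 0 < 2 ^ k := by positivity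
  rcases Nat.lt_or_ge (dimOf g) N with hd | hd
  · exact hD0 g T hT ⟨hg, hd⟩ (by omega)
  have := Fintype.ofFinite T
  have h1 := hD g T hT hg (by omega)
  have h2 := hN g T hT hg hd
  have h3 : k ≤ lg T := le_lg (by omega)
  set L := lg T with hL
  have hL1 : (1 : ℝ) ≤ L := by exact_mod_cast hk1.trans h3
  have hC' : (0 : ℝ) < C := by exact_mod_cast hC
  refine (nongen_le_of_fix h1 (by positivity) (by positivity) h2).trans ?_
  have h5 : (2 * (C : ℝ) ^ 2 / ε) ≤ L := hk.trans (by exact_mod_cast h3)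
  rw [div_le_iff₀ hε] at h5
  have h6 : ((C * L : ℕ) : ℝ) * (1 / (L : ℝ) ^ 3 / (1 / (C * L))) = (C : ℝ) ^ 2 / L := by
    push_cast
    field_simp
  rw [h6, mul_comm ε]
  refine mul_le_mul_of_nonneg_left ?_ (by positivity)
  have h7 : (C : ℝ) ^ 2 / L ≤ ε / 2 := by
    rw [div_le_iff₀ (by positivity)]
    linarith
  linarith

/-- transport of `nongen` -/
theorem nongen_congr {T : Type*} {T' : Type*} [Group T] [Group T'] (e : T ≃* T') : nongen T = nongen T' := by
  unfold nongen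
  refine Nat.card_congr ((e.toEquiv.prodCongr e.toEquiv).subtypeEquiv fun p => ?_)
  have h1 : (closure {p.1, p.2}).map e.toMonoidHom = closure {e p.1, e p.2} := by
    rw [MonoidHom.map_closure]
    congr 1
    simp [Set.image_pair]
  have h2 : closure {((e.toEquiv.prodCongr e.toEquiv) p).1, ((e.toEquiv.prodCongr e.toEquiv) p).2} =
      (closure {p.1, p.2}).map e.toMonoidHom := h1.symm
  rw [h2, not_iff_not]
  constructor
  · intro h
    rw [h, Subgroup.map_top_of_surjective _ e.surjective]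
  · intro h
    have h3 := congrArg (Subgroup.comap e.toMonoidHom) h
    rwa [Subgroup.comap_map_eq_self_of_injective e.injective, Subgroup.comap_top] at h3

/-- a copy in `Type` -/
theorem exists_zero (T : Type u) [Group T] [Finite T] : ∃ (T0 : Type) (_ : Group T0) (_ : Finite T0),
    Nonempty (T ≃* T0) := by
  have : Small.{0} T := inferInstance
  exact ⟨Shrink.{0} T, inferInstance, Finite.of_equiv T (equivShrink T), ⟨Shrink.mulEquiv.symm⟩⟩

/-- the cyclic groups -/
theorem nongen_comm (T : Type u) [Group T] [Finite T] [IsSimpleGroup T] (hc : IsMulCommutative T) : nongen T ≤ 1 := by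
  unfold nongen
  rw [Finite.card_le_one_iff_subsingleton]
  refine ⟨fun a b => ?_⟩
  have key : ∀ p : {p : T × T // closure {p.1, p.2} ≠ ⊤}, p.1 = (1, 1) := by
    intro p
    have hn : (closure {p.1.1, p.1.2}).Normal := ⟨fun x hx g => by
      rw [hc.is_comm.comm g x, mul_assoc, mul_inv_cancel, mul_one]
      exact hx⟩
    rcases hn.eq_bot_or_eq_top with h | h
    · have h1 : p.1.1 ∈ closure {p.1.1, p.1.2} := subset_closure (by simp)
      have h2 : p.1.2 ∈ closure {p.1.1, p.1.2} := subset_closure (by simp)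
      rw [h, mem_bot] at h1 h2
      exact Prod.ext h1 h2
    · exact absurd h p.2
  exact Subtype.ext ((key a).trans (key b).symm)

/-- **The assembly of S5714.** -/
theorem main (hname : ∀ (S : Type) [Group S] [Finite S] [IsSimpleGroup S], ¬ IsMulCommutative S → ∃ g, IsNamed g S)
    (h : FamG fun _ => True) (ε : ℝ) (hε : 0 < ε) :
    ∃ N : ℕ, ∀ (G : Type u) [Group G] [Finite G] [IsSimpleGroup G], N ≤ Nat.card G →
      (1 - ε) * (Nat.card G : ℝ) ^ 2 ≤ Nat.card {xy : G × G // closure {xy.1, xy.2} = ⊤} := by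
  obtain ⟨D, hD⟩ := h ε hε
  obtain ⟨k, hk1, hk⟩ := exists_nat_pow_two (1 / ε)
  refine ⟨D + k, fun G _ _ _ hG => ?_⟩
  have hpos : (0 : ℝ) < Nat.card G := by exact_mod_cast Nat.card_pos
  -- the number of non-generating pairs
  have h1 : (nongen G : ℝ) ≤ ε * (Nat.card G : ℝ) ^ 2 := by
    by_cases hc : IsMulCommutative G
    · have h2 : (nongen G : ℝ) ≤ 1 := by exact_mod_cast nongen_comm G hc
      have h3 : (1 / ε) ≤ Nat.card G := hk.trans (by exact_mod_cast (show k ≤ Nat.card G by omega))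
      rw [div_le_iff₀ hε] at h3
      have h4 : (1 : ℝ) ≤ Nat.card G := by
        exact_mod_cast (show 1 ≤ Nat.card G by omega)
      nlinarith
    · obtain ⟨T0, _, _, ⟨e⟩⟩ := exists_zero G
      have hs : IsSimpleGroup T0 := e.symm.isSimpleGroup
      have hna : ¬ IsMulCommutative T0 := fun hc0 => hc ⟨⟨fun a b => e.injective (by
        rw [map_mul, map_mul]; exact hc0.is_comm.comm _ _)⟩⟩
      obtain ⟨g, hg⟩ := hname T0 hna
      have h2 := hD g T0 hg trivial (by rw [← Nat.card_congr e.toEquiv]; omega)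
      rw [nongen_congr e, Nat.card_congr e.toEquiv]
      exact h2
  have h2 : (Nat.card {xy : G × G // closure {xy.1, xy.2} = ⊤} : ℝ) + nongen G = (Nat.card G : ℝ) ^ 2 := by
    classical
    have := Fintype.ofFinite G
    have h3 : Nat.card {xy : G × G // closure {xy.1, xy.2} = ⊤} + nongen G = Nat.card G * Nat.card G := by
      rw [← Nat.card_prod]
      unfold nongen
      rw [← Nat.card_sum]
      exact Nat.card_congr (Equiv.sumCompl fun xy : G × G => closure {xy.1, xy.2} = ⊤)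
    rw [pow_two]
    exact_mod_cast h3
  linarith

end Rows

end Cfsg.Agent.H262.Rg.Asm
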