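import Mathlib
import Cfsg.Agent.H262.Rg.Asm
import Cfsg.Agent.H178.RG.Defs

/-!
# Random generation (S5714): the engines with the coverings `Cov` of the hub

* `engine_ratio` : `Cov` and `RatioM` (ratios of powers);
* `engine_fix` : `Cov` and `FixB` (averages over `⟨y⟩`);
* `CovRow P`, `rowG_of_ratio`, `rowG_of_large` : the rows `RowG P`;
* `main` : S5714 from `RowG` for all names.
-/

set_option autoImplicit false
set_option linter.unusedSectionVars false

namespace Cfsg.Agent.H262.Rg.Bridge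

open Cfsg Cfsg.Agent.OrdDiv Cfsg.Agent.H436 Subgroup
open Cfsg.Agent.H262.Rg.Engine Cfsg.Agent.H262.Rg.Powers Cfsg.Agent.H262.Rg.Ratio Cfsg.Agent.H262.Rg.Asm
open Cfsg.Agent.H178.RG (badP NSet Cov RowG)
open Cfsg.Agent.H278.El.AltNum (dimOf)

universe u

theorem badP_eq (T : Type u) [Group T] : badP T = nongen T := rfl

theorem famG_iff (P : Grp → Prop) : FamG P ↔ RowG P := by
  constructor
  · intro h ε hε
    obtain ⟨D, hD⟩ := h ε hε
    exact ⟨D, fun g T _ _ _ hT hg h => hD g T hT hg h⟩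
  · intro h ε hε
    obtain ⟨D, hD⟩ := h ε hε
    exact ⟨D, fun g T _ _ _ hT hg h => hD g T hT hg h⟩

section One

variable {T : Type u} [Group T] [Fintype T]

theorem normal_of_nset {A : Set T} (h : NSet A) : Normal A := fun g hg x => h x g hg

/-- union bound over the covering -/
theorem badP_le {k F ρ P β : ℝ} (hc : Cov T k F ρ) (hβ : 0 ≤ β) (S : Set T)
    (hP : (Nat.card {y : T // y ∉ S} : ℝ) ≤ P * Nat.card T)
    (hB : ∀ A : Set T, Normal A → (Nat.card T : ℝ) ≤ F * Nat.card A →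
      (Nat.card {p : T × T // p.2 ∈ S ∧ ∀ z ∈ closure {p.1, p.2}, z ∉ A} : ℝ) ≤ β * (Nat.card T : ℝ) ^ 2) :
    (badP T : ℝ) ≤ (ρ + P + k * β) * (Nat.card T : ℝ) ^ 2 := by
  classical
  obtain ⟨𝒜, W, hk, hW, hA, hM⟩ := hc
  have hG : (0 : ℝ) < Nat.card T := by exact_mod_cast Nat.card_pos
  have h1 : badP T ≤ Nat.card W + Nat.card {p : T × T // p.2 ∉ S} +
      ∑ A : 𝒜, Nat.card {p : T × T // p.2 ∈ S ∧ ∀ z ∈ closure {p.1, p.2}, z ∉ (A : Set T)} := by
    rw [← Nat.card_sigma, ← Nat.card_sum, ← Nat.card_sum]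
    have hch : ∀ p : {p : T × T // closure {p.1, p.2} ≠ ⊤}, p.1 ∉ W → ∃ A : 𝒜, ∀ z ∈ closure {p.1.1, p.1.2}, z ∉ (A : Set T) := by
      intro p hpW
      obtain ⟨M, hMc, hle⟩ := (eq_top_or_exists_le_coatom (closure {p.1.1, p.1.2})).resolve_left p.2
      rcases hM M hMc with ⟨A, hA1, hA2⟩ | h
      · exact ⟨⟨A, hA1⟩, fun z hz => hA2 z (hle hz)⟩
      · exact absurd (h p.1.1 (hle (subset_closure (by simp))) p.1.2 (hle (subset_closure (by simp)))) hpW
    choose f hf using hch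
    refine Nat.card_le_card_of_injective (fun p : {p : T × T // closure {p.1, p.2} ≠ ⊤} =>
      if hw : p.1 ∈ W then Sum.inl (Sum.inl ⟨p.1, hw⟩) else
        if h : p.1.2 ∈ S then Sum.inr ⟨f p hw, p.1, h, hf p hw⟩ else Sum.inl (Sum.inr ⟨p.1, h⟩)) ?_
    intro p p' h
    apply Subtype.ext
    by_cases w1 : p.1 ∈ W <;> by_cases w2 : p'.1 ∈ W
    · simp only [w1, w2, dif_pos] at h
      exact congrArg (fun x : W => x.1) (Sum.inl_injective (Sum.inl_injective h))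
    · by_cases h2 : p'.1.2 ∈ S <;> simp [w1, w2, h2] at h
    · by_cases h2 : p.1.2 ∈ S <;> simp [w1, w2, h2] at h
    · by_cases h1 : p.1.2 ∈ S <;> by_cases h2 : p'.1.2 ∈ S
      · simp only [w1, w2, h1, h2, dif_pos, dif_neg, not_false_iff] at h
        exact congrArg (fun x : Σ A : 𝒜, {p : T × T // p.2 ∈ S ∧ ∀ z ∈ closure {p.1, p.2}, z ∉ (A : Set T)} => x.2.1)
          (Sum.inr_injective h)
      · simp [w1, w2, h1, h2] at h
      · simp [w1, w2, h1, h2] at h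
      · simp only [w1, w2, h1, h2, dif_neg, not_false_iff] at h
        exact congrArg (fun x : {p : T × T // p.2 ∉ S} => x.1) (Sum.inr_injective (Sum.inl_injective h))
  have h2 : (Nat.card {p : T × T // p.2 ∉ S} : ℝ) ≤ P * (Nat.card T : ℝ) ^ 2 := by
    have e : Nat.card {p : T × T // p.2 ∉ S} = Nat.card T * Nat.card {y : T // y ∉ S} := by
      rw [← Nat.card_prod]
      exact Nat.card_congr
        { toFun := fun p => (p.1.1, ⟨p.1.2, p.2⟩)
          invFun := fun q => ⟨(q.1, q.2.1), q.2.2⟩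
          left_inv := fun p => rfl
          right_inv := fun q => rfl }
    rw [e]
    push_cast
    calc (Nat.card T : ℝ) * Nat.card {y : T // y ∉ S} ≤ Nat.card T * (P * Nat.card T) :=
          mul_le_mul_of_nonneg_left hP hG.le
      _ = _ := by ring
  have h3 : (badP T : ℝ) ≤ Nat.card W + Nat.card {p : T × T // p.2 ∉ S} +
      ∑ A : 𝒜, (Nat.card {p : T × T // p.2 ∈ S ∧ ∀ z ∈ closure {p.1, p.2}, z ∉ (A : Set T)} : ℝ) := by exact_mod_cast h1
  have h4 : ∑ A : 𝒜, (Nat.card {p : T × T // p.2 ∈ S ∧ ∀ z ∈ closure {p.1, p.2}, z ∉ (A : Set T)} : ℝ) ≤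
      k * (β * (Nat.card T : ℝ) ^ 2) := by
    refine (Finset.sum_le_sum fun (A : 𝒜) _ => hB A.1 (normal_of_nset (hA A.1 A.2).1) (hA A.1 A.2).2).trans ?_
    rw [Finset.sum_const, Finset.card_univ, Fintype.card_coe, nsmul_eq_mul]
    exact mul_le_mul_of_nonneg_right hk (by positivity)
  calc (badP T : ℝ) ≤ ρ * (Nat.card T : ℝ) ^ 2 + P * (Nat.card T : ℝ) ^ 2 + k * (β * (Nat.card T : ℝ) ^ 2) :=
        h3.trans (add_le_add (add_le_add hW h2) h4)
    _ = _ := by ring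

/-- density of `A` -/
theorem inv_le_dens {A : Set T} {F : ℝ} (hF : 0 < F) (h : (Nat.card T : ℝ) ≤ F * Nat.card A) : 1 / F ≤ dens A := by
  have hG : (0 : ℝ) < Nat.card T := by exact_mod_cast Nat.card_pos
  unfold dens
  rw [div_le_div_iff₀ hF hG]
  linarith

/-- **Engine, ratios of powers.** -/
theorem engine_ratio {k F ρ : ℝ} (hc : Cov T k F ρ) (hF : 0 < F) {K : ℕ} (hK : 0 < K) {γ : ℝ} (hγ0 : 0 ≤ γ)
    (hγ : ∀ m, 0 < m → m < K → RatioM T m γ) :
    (badP T : ℝ) ≤ (ρ + k * (F * (1 / K + γ))) * (Nat.card T : ℝ) ^ 2 := by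
  classical
  have hK' : (0 : ℝ) < K := by exact_mod_cast hK
  have h := badP_le (P := 0) (β := F * (1 / K + γ)) hc (by positivity) Set.univ (by simp) fun A hA hd => by
    have h1 := pairs_miss_of_ratio hA hK hγ0 hγ
    have h2 : (Nat.card {p : T × T // p.2 ∈ Set.univ ∧ ∀ z ∈ closure {p.1, p.2}, z ∉ A} : ℝ) ≤
        Nat.card {p : T × T // ∀ i < K, p.1 * p.2 ^ i ∉ A} := by
      have : Nat.card {p : T × T // p.2 ∈ Set.univ ∧ ∀ z ∈ closure {p.1, p.2}, z ∉ A} ≤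
          Nat.card {p : T × T // ∀ i < K, p.1 * p.2 ^ i ∉ A} := by
        refine Nat.card_le_card_of_injective (fun p => ⟨p.1, fun i _ => p.2.2 _ ?_⟩) fun a b h => ?_
        · exact mul_mem (subset_closure (by simp)) (pow_mem (subset_closure (by simp)) i)
        · exact Subtype.ext (congrArg (fun x => x.1) h)
      exact_mod_cast this
    refine h2.trans ?_
    have h3 := inv_le_dens hF hd
    have h4 : (Nat.card {p : T × T // ∀ i < K, p.1 * p.2 ^ i ∉ A} : ℝ) * (1 / F) ≤ (Nat.card T : ℝ) ^ 2 * (1 / K + γ) :=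
      (mul_le_mul_of_nonneg_left h3 (Nat.cast_nonneg _)).trans h1
    rw [mul_one_div, div_le_iff₀ hF] at h4
    linarith
  rw [add_zero] at h
  exact h

/-- **Engine, averages over `⟨y⟩`.** -/
theorem engine_fix {k F ρ : ℝ} (hc : Cov T k F ρ) (hF : 0 < F) {β P : ℝ} (hβ : 0 ≤ β) (hfix : FixB T β P) :
    (badP T : ℝ) ≤ (ρ + P + k * (F * β)) * (Nat.card T : ℝ) ^ 2 := by
  classical
  obtain ⟨S, hP, hS'⟩ := hfix
  refine badP_le (β := F * β) hc (by positivity) S hP fun A hA hd => ?_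
  have e1 : Nat.card {p : T × T // p.2 ∈ S ∧ ∀ z ∈ closure {p.1, p.2}, z ∉ A} ≤
      Nat.card (Σ y : S, {x : T // ∀ t ∈ zpowers (y : T), x * t ∉ A}) := by
    refine Nat.card_le_card_of_injective (fun p => ⟨⟨p.1.2, p.2.1⟩, p.1.1, fun t ht => p.2.2 _ ?_⟩) fun a b h => ?_
    · exact mul_mem (subset_closure (by simp)) ((zpowers_le.2 (subset_closure (by simp))) ht)
    · have h1 : (a.1.2 : T) = b.1.2 := congrArg
        (fun x : Σ y : S, {x : T // ∀ t ∈ zpowers (y : T), x * t ∉ A} => (x.1 : T)) h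
      have h2 : (a.1.1 : T) = b.1.1 := congrArg
        (fun x : Σ y : S, {x : T // ∀ t ∈ zpowers (y : T), x * t ∉ A} => x.2.1) h
      exact Subtype.ext (Prod.ext h2 h1)
  have e2 : (Nat.card (Σ y : S, {x : T // ∀ t ∈ zpowers (y : T), x * t ∉ A}) : ℝ) =
      ∑ y : S, (Nat.card {x : T // ∀ t ∈ zpowers (y : T), x * t ∉ A} : ℝ) := by
    rw [Nat.card_sigma]
    push_cast
    rfl
  have e3 : ∀ y : S, (Nat.card {x : T // ∀ t ∈ zpowers (y : T), x * t ∉ A} : ℝ) ≤ Nat.card T * (F * β) := by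
    intro y
    have h1 := card_miss_subgroup_le hA (zpowers (y : T)) hβ (fun χ hχ hne => by
      have h2 := hS' y y.2 χ hχ hne
      have h3 : ∑ t ∈ (Set.toFinite (zpowers (y : T) : Set T)).toFinset, (χ t / χ 1).re =
          ∑ t : zpowers (y : T), (χ (t : T) / χ 1).re := by
        rw [← Finset.sum_coe_sort (Set.toFinite (zpowers (y : T) : Set T)).toFinset (fun t => (χ t / χ 1).re)]
        refine Fintype.sum_equiv (Equiv.subtypeEquivRight fun t => by simp) _ _ fun t => rfl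
      rw [h3, Nat.card_eq_fintype_card] at h2
      exact h2)
    have h4 := (mul_le_mul_of_nonneg_left (inv_le_dens hF hd) (Nat.cast_nonneg _)).trans h1
    rw [mul_one_div, div_le_iff₀ hF] at h4
    linarith
  have e4 : (Nat.card {p : T × T // p.2 ∈ S ∧ ∀ z ∈ closure {p.1, p.2}, z ∉ A} : ℝ) ≤
      (Nat.card (Σ y : S, {x : T // ∀ t ∈ zpowers (y : T), x * t ∉ A}) : ℝ) := by exact_mod_cast e1
  refine e4.trans ?_
  rw [e2]
  refine (Finset.sum_le_sum fun y _ => e3 y).trans ?_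
  rw [Finset.sum_const, nsmul_eq_mul, pow_two]
  have h5 : ((Finset.univ : Finset S).card : ℝ) ≤ Nat.card T := by
    rw [Finset.card_univ, Nat.card_eq_fintype_card]
    exact_mod_cast Fintype.card_le_of_injective _ Subtype.val_injective
  have h6 : (0 : ℝ) ≤ F * β * Nat.card T := by positivity
  nlinarith

end One

/-- coverings for the groups with a name in `P` -/
def CovRow (P : Grp → Prop) : Prop :=
  ∃ C : ℕ, 0 < C ∧ ∀ ρ : ℝ, 0 < ρ → ∃ D : ℕ, ∀ (g : Grp) (T : Type) [Group T] [Finite T] [IsSimpleGroup T],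
    IsNamed g T → P g → D ≤ Nat.card T → Cov T ((C : ℝ) * (lg T : ℝ) ^ C) ((C : ℝ) * (lg T : ℝ) ^ C) ρ

theorem CovRow.mono {P Q : Grp → Prop} (hQ : CovRow Q) (h : ∀ g, P g → Q g) : CovRow P := by
  obtain ⟨C, hC, hD⟩ := hQ
  refine ⟨C, hC, fun ρ hρ => ?_⟩
  obtain ⟨D, hD⟩ := hD ρ hρ
  exact ⟨D, fun g T _ _ _ hT hg => hD g T hT (h g hg)⟩

/-- a power of `lg` absorbs a constant -/
theorem const_le (C : ℕ) {ε : ℝ} (hε : 0 < ε) : ∃ k : ℕ, 1 ≤ k ∧ ∀ L : ℕ, k ≤ L →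
    (C : ℝ) * (L : ℝ) ^ C * ((C : ℝ) * (L : ℝ) ^ C * (1 / (L : ℝ) ^ (2 * C + 1))) ≤ ε := by
  obtain ⟨k, hk1, hk⟩ := exists_nat_pow_two ((C : ℝ) ^ 2 / ε)
  refine ⟨k, hk1, fun L hL => ?_⟩
  have hL1 : (1 : ℝ) ≤ L := by exact_mod_cast hk1.trans hL
  have h5 : ((C : ℝ) ^ 2 / ε) ≤ L := hk.trans (by exact_mod_cast hL)
  rw [div_le_iff₀ hε] at h5
  have e : (C : ℝ) * (L : ℝ) ^ C * ((C : ℝ) * (L : ℝ) ^ C * (1 / (L : ℝ) ^ (2 * C + 1))) = (C : ℝ) ^ 2 / L := by
    rw [pow_succ, pow_mul, ← pow_mul, mul_comm 2 C, pow_mul]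
    field_simp
  rw [e, div_le_iff₀ (by positivity)]
  linarith

/-- **A row of `RowG` from `CovRow` and `RatioRow`.** -/
theorem rowG_of_ratio {P : Grp → Prop} (hS : CovRow P) (hR : RatioRow P) : RowG P := by
  intro ε hε
  obtain ⟨C, hC, hD⟩ := hS
  obtain ⟨D, hD⟩ := hD (ε / 2) (by positivity)
  obtain ⟨D', hD'⟩ := hR (2 * C + 1)
  obtain ⟨k, hk1, hk⟩ := const_le C (ε := ε / 4) (by positivity)
  refine ⟨D + D' + 2 ^ k, fun g T _ _ _ hT hg h => ?_⟩
  have := Fintype.ofFinite T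
  have hk2 : 0 < 2 ^ k := by positivity
  have h1 := hD g T hT hg (by omega)
  have h2 := hD' g T hT hg (by omega)
  have h3 : k ≤ lg T := le_lg (by omega)
  set L := lg T with hL
  have hL0 : 0 < L := by omega
  have hC' : (0 : ℝ) < C := by exact_mod_cast hC
  have hL0' : (0 : ℝ) < L := by exact_mod_cast hL0
  have h4 := engine_ratio (K := L ^ (2 * C + 1)) h1 (by positivity) (by positivity) (by positivity) h2
  refine h4.trans ?_
  refine mul_le_mul_of_nonneg_right ?_ (by positivity)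
  have h5 := hk L h3
  push_cast
  have e : (C : ℝ) * (L : ℝ) ^ C * ((C : ℝ) * (L : ℝ) ^ C * (1 / (L : ℝ) ^ (2 * C + 1) + 1 / (L : ℝ) ^ (2 * C + 1))) =
      2 * ((C : ℝ) * (L : ℝ) ^ C * ((C : ℝ) * (L : ℝ) ^ C * (1 / (L : ℝ) ^ (2 * C + 1)))) := by ring
  rw [e]
  linarith

/-- **The classical groups**: large dimension from `LargeFix`, bounded dimension from `RatioRow`. -/
theorem rowG_of_large {P : Grp → Prop} (hS : CovRow P) (hF : LargeFix P)
    (hR : ∀ N : ℕ, RatioRow fun g => P g ∧ dimOf g < N) : RowG P := by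
  intro ε hε
  obtain ⟨C, hC, hD⟩ := id hS
  obtain ⟨N, hN⟩ := hF (2 * C + 1) (ε / 4) (by positivity)
  obtain ⟨D0, hD0⟩ := rowG_of_ratio (hS.mono fun g (hg : P g ∧ dimOf g < N) => hg.1) (hR N) ε hε
  obtain ⟨D, hD⟩ := hD (ε / 4) (by positivity)
  obtain ⟨k, hk1, hk⟩ := const_le C (ε := ε / 4) (by positivity)
  refine ⟨D0 + D + 2 ^ k, fun g T _ _ _ hT hg h => ?_⟩
  have hk2 : 0 < 2 ^ k := by positivity
  rcases Nat.lt_or_ge (dimOf g) N with hd | hd
  · exact hD0 g T hT ⟨hg, hd⟩ (by omega)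
  have := Fintype.ofFinite T
  have h1 := hD g T hT hg (by omega)
  have h2 := hN g T hT hg hd
  have h3 : k ≤ lg T := le_lg (by omega)
  set L := lg T with hL
  have hL0 : 0 < L := by omega
  have hC' : (0 : ℝ) < C := by exact_mod_cast hC
  have hL0' : (0 : ℝ) < L := by exact_mod_cast hL0
  refine (engine_fix h1 (by positivity) (by positivity) h2).trans ?_
  refine mul_le_mul_of_nonneg_right ?_ (by positivity)
  have h5 := hk L h3
  linarith

/-- **S5714 from the rows.** -/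
theorem main (hname : ∀ (S : Type) [Group S] [Finite S] [IsSimpleGroup S], ¬ IsMulCommutative S → ∃ g, IsNamed g S)
    (h : RowG fun _ => True) (ε : ℝ) (hε : 0 < ε) :
    ∃ N : ℕ, ∀ (G : Type u) [Group G] [Finite G] [IsSimpleGroup G], N ≤ Nat.card G →
      (1 - ε) * (Nat.card G : ℝ) ^ 2 ≤ Nat.card {xy : G × G // closure {xy.1, xy.2} = ⊤} :=
  Asm.main hname ((famG_iff _).2 h) ε hε

end Cfsg.Agent.H262.Rg.Bridge
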