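import Mathlib
import Cfsg.Agent.H262.Rg.Fam

/-!
# Random generation (S5714): all the names, from the rows
-/

set_option autoImplicit false
set_option linter.unusedSectionVars false

namespace Cfsg.Agent.H262.Rg.Final

open Cfsg Cfsg.Agent.OrdDiv Cfsg.Agent.H436 Subgroup
open Cfsg.Agent.H262.Rg.Asm Cfsg.Agent.H262.Rg.Bridge Cfsg.Agent.H262.Rg.Fam
open Cfsg.Agent.H178.RG (badP NSet Cov RowG)
open Cfsg.Agent.H141.Rg (FamNF FamP FamGen)
open Cfsg.Agent.H851.Dg (BigCl)

universe u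

/-- sporadic names and the Tits group -/
def IsSp (g : Grp) : Prop := g ∈ spor.map (fun x => x.1)

theorem rowG_sp : RowG IsSp := by
  refine rowG_of_card_le (spor.map fun x => num x.1).sum fun g hg => ?_
  obtain ⟨x, hx, rfl⟩ := List.mem_map.1 hg
  exact List.single_le_sum (fun _ _ => Nat.zero_le _) _ (List.mem_map.2 ⟨x, hx, rfl⟩)

/-- exceptional names -/
def IsEx : Grp → Prop
  | .g2 _ => True
  | .f4 _ => True
  | .e6 _ => True
  | .e7 _ => True
  | .e8 _ => True
  | .te6 _ => True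
  | .td4 _ => True
  | .sz _ => True
  | .ree _ => True
  | .tf4 _ => True
  | _ => False

/-- classical names -/
def IsCl : Grp → Prop
  | .psl _ _ => True
  | .psp _ _ => True
  | .psu _ _ => True
  | .oodd _ _ => True
  | .oplus _ _ => True
  | .ominus _ _ => True
  | _ => False

theorem kinds (g : Grp) : (∃ n, g = .alt n) ∨ IsCl g ∨ IsEx g ∨ IsSp g := by
  cases g with
  | alt n => exact Or.inl ⟨n, rfl⟩
  | psl n q => exact Or.inr (Or.inl trivial)
  | psp m q => exact Or.inr (Or.inl trivial)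
  | psu n q => exact Or.inr (Or.inl trivial)
  | oodd m q => exact Or.inr (Or.inl trivial)
  | oplus m q => exact Or.inr (Or.inl trivial)
  | ominus m q => exact Or.inr (Or.inl trivial)
  | g2 q => exact Or.inr (Or.inr (Or.inl trivial))
  | f4 q => exact Or.inr (Or.inr (Or.inl trivial))
  | e6 q => exact Or.inr (Or.inr (Or.inl trivial))
  | e7 q => exact Or.inr (Or.inr (Or.inl trivial))
  | e8 q => exact Or.inr (Or.inr (Or.inl trivial))
  | te6 q => exact Or.inr (Or.inr (Or.inl trivial))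
  | td4 q => exact Or.inr (Or.inr (Or.inl trivial))
  | sz q => exact Or.inr (Or.inr (Or.inl trivial))
  | ree q => exact Or.inr (Or.inr (Or.inl trivial))
  | tf4 q => exact Or.inr (Or.inr (Or.inl trivial))
  | _ =>
    refine Or.inr (Or.inr (Or.inr ?_))
    simp only [IsSp, spor, List.map_cons, List.map_nil, List.mem_cons, reduceCtorEq, true_or, or_true, false_or]

/-- only the names with `Cond` matter -/
theorem RowG.cond {P Q : Grp → Prop} (hQ : RowG Q) (h : ∀ g, Cond g → P g → Q g) : RowG P := by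
  intro ε hε
  obtain ⟨D, hD⟩ := hQ ε hε
  exact ⟨D, fun g T _ _ _ hT hg => hD g T hT (h g hT.cond hg)⟩

/-- the classical groups with large rank or small rank -/
theorem classical_kinds (g : Grp) (hc : Cond g) (h : IsCl g) :
    BigCl g ∨ (∃ q, g = .psl 2 q) ∨ (∃ q, g = .psl 3 q) ∨ (∃ q, g = .psu 3 q) ∨ (∃ q, g = .psp 2 q) := by
  cases g with
  | psl n q =>
    obtain ⟨hn2, -, -⟩ := hc
    rcases Nat.lt_or_ge 3 n with h3 | h3
    · exact Or.inl h3
    · rcases (show n = 2 ∨ n = 3 by omega) with rfl | rfl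
      · exact Or.inr (Or.inl ⟨q, rfl⟩)
      · exact Or.inr (Or.inr (Or.inl ⟨q, rfl⟩))
  | psp m q =>
    obtain ⟨hn2, -, -⟩ := hc
    rcases Nat.lt_or_ge 2 m with h3 | h3
    · exact Or.inl h3
    · obtain rfl : m = 2 := by omega
      exact Or.inr (Or.inr (Or.inr (Or.inr ⟨q, rfl⟩)))
  | psu n q =>
    obtain ⟨hn2, -, -⟩ := hc
    rcases Nat.lt_or_ge 3 n with h3 | h3
    · exact Or.inl h3
    · obtain rfl : n = 3 := by omega
      exact Or.inr (Or.inr (Or.inr (Or.inl ⟨q, rfl⟩)))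
  | oodd m q => exact Or.inl hc.1
  | oplus m q => exact Or.inl hc.1
  | ominus m q => exact Or.inl hc.1
  | _ => exact h.elim

/-- **Rows of `S5714`: all names.** -/
theorem rowG_all (halt : RowG fun g => ∃ n, g = .alt n) (hcl : RowG IsCl) (hex : RowG IsEx) :
    RowG fun _ => True := by
  have h := RowG.or' halt (RowG.or' hcl (RowG.or' hex rowG_sp))
  exact RowG.mono' h fun g _ => kinds g

/-- the classical row from the rows of TEAM RG -/
theorem rowG_cl (nf_big : FamNF (fun g => BigCl g)) (nf_psl2 : FamNF (fun g => ∃ q, g = .psl 2 q))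
    (nf_psl3 : FamNF (fun g => ∃ q, g = .psl 3 q)) (nf_psu3 : FamNF (fun g => ∃ q, g = .psu 3 q))
    (nf_psp4 : FamNF (fun g => ∃ q, g = .psp 2 q))
    (famP_psl2 : FamP (fun g => ∃ q, g = .psl 2 q)) (famP_psl : FamP (fun g => ∃ n q, 3 ≤ n ∧ g = .psl n q))
    (famP_psu : FamP (fun g => ∃ n q, g = .psu n q)) (famP_psp : FamP (fun g => ∃ m q, g = .psp m q))
    (famP_oodd : FamP (fun g => ∃ m q, g = .oodd m q)) (famP_oplus : FamP (fun g => ∃ m q, g = .oplus m q))
    (famP_ominus : FamP (fun g => ∃ m q, g = .ominus m q)) : RowG IsCl := by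
  have hP : FamP IsCl := by
    have h := famP_psl2.or (famP_psl.or (famP_psu.or (famP_psp.or (famP_oodd.or (famP_oplus.or famP_ominus)))))
    intro a ε hε
    obtain ⟨D, hD⟩ := h a ε hε
    refine ⟨D, fun g T _ _ _ hT hg => hD g T hT ?_⟩
    have hc := hT.cond
    cases g with
    | psl n q =>
      obtain ⟨hn2, -, -⟩ := hc
      rcases Nat.lt_or_ge 2 n with h3 | h3
      · exact Or.inr (Or.inl ⟨n, q, h3, rfl⟩)
      · obtain rfl : n = 2 := by omega
        exact Or.inl ⟨q, rfl⟩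
    | psu n q => exact Or.inr (Or.inr (Or.inl ⟨n, q, rfl⟩))
    | psp m q => exact Or.inr (Or.inr (Or.inr (Or.inl ⟨m, q, rfl⟩)))
    | oodd m q => exact Or.inr (Or.inr (Or.inr (Or.inr (Or.inl ⟨m, q, rfl⟩))))
    | oplus m q => exact Or.inr (Or.inr (Or.inr (Or.inr (Or.inr (Or.inl ⟨m, q, rfl⟩)))))
    | ominus m q => exact Or.inr (Or.inr (Or.inr (Or.inr (Or.inr (Or.inr ⟨m, q, rfl⟩)))))
    | _ => exact hg.elim
  have hN : FamNF (fun g => BigCl g ∨ (∃ q, g = .psl 2 q) ∨ (∃ q, g = .psl 3 q) ∨ (∃ q, g = .psu 3 q) ∨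
      (∃ q, g = .psp 2 q)) := nf_big.or (nf_psl2.or (nf_psl3.or (nf_psu3.or nf_psp4)))
  have hC : CovRow IsCl := by
    obtain ⟨C, hC, hD⟩ := covRow_of_nf hN
    refine ⟨C, hC, fun ρ hρ => ?_⟩
    obtain ⟨D, hD⟩ := hD ρ hρ
    exact ⟨D, fun g T _ _ _ hT hg => hD g T hT (classical_kinds g hT.cond hg)⟩
  exact rowG_of_p hC hP

end Cfsg.Agent.H262.Rg.Final
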